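import Cfsg.Agent.H49.SylowOf

/-! Commuting involutory automorphisms of a nilpotent group of odd order: the group is generated by
the elements that each automorphism fixes or inverts. -/

set_option autoImplicit false

namespace Cfsg.Agent.H13.Eig

open Subgroup Cfsg.Agent.H49

variable {P : Type*} [Group P]

/-- every automorphism in `I` fixes or inverts `x` -/
def Eg (I : Subgroup (MulAut P)) (x : P) : Prop := ∀ T ∈ I, T x = x ∨ T x = x⁻¹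

/-- `Q` is invariant under `I` -/
def Inv (I : Subgroup (MulAut P)) (Q : Subgroup P) : Prop := ∀ T ∈ I, ∀ x ∈ Q, T x ∈ Q

theorem tt {T : MulAut P} (h : T ^ 2 = 1) (x : P) : T (T x) = x := by
  rw [← MulAut.mul_apply, ← pow_two, h, MulAut.one_apply]

theorem eq_one_of_inv (ho : Odd (Nat.card P)) {x : P} (h : x = x⁻¹) : x = 1 := by
  obtain ⟨k, hk⟩ := ho
  have h1 : x ^ 2 = 1 := by rw [pow_two]; nth_rewrite 1 [h]; exact inv_mul_cancel x
  have h2 := pow_card_eq_one' (x := x)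
  rwa [hk, pow_succ, pow_mul, h1, one_pow, one_mul] at h2

theorem sqrt_step (ho : Odd (Nat.card P)) {T : MulAut P} (h : T ^ 2 = 1) (x : P) :
    ∃ f ∈ zpowers (x⁻¹ * T x), T (x * f) = x * f ∧ T f = f⁻¹ := by
  obtain ⟨k, hk⟩ := ho
  set e := x⁻¹ * T x with he
  have h1 : T e = e⁻¹ := by rw [he, map_mul, map_inv, tt h, mul_inv_rev, inv_inv]
  have h2 : e ^ (k + 1) * e ^ (k + 1) = e := by
    rw [← pow_add, show k + 1 + (k + 1) = 2 * k + 1 + 1 by ring, pow_succ, ← hk, pow_card_eq_one',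
      one_mul]
  have h3 : T (e ^ (k + 1)) = (e ^ (k + 1))⁻¹ := by rw [map_pow, h1, inv_pow]
  refine ⟨e ^ (k + 1), pow_mem (mem_zpowers e) _, ?_, h3⟩
  rw [map_mul, h3, mul_inv_eq_iff_eq_mul, mul_assoc, h2, he, mul_inv_cancel_left]

theorem mem_of_sq (ho : Odd (Nat.card P)) {E : Subgroup P} {x : P} (h : x * x ∈ E) : x ∈ E := by
  obtain ⟨k, hk⟩ := ho
  have h2 : (x * x) ^ (k + 1) = x := by
    rw [← pow_two, ← pow_mul, show 2 * (k + 1) = 2 * k + 1 + 1 by ring, pow_succ, ← hk,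
      pow_card_eq_one', one_mul]
  exact h2 ▸ pow_mem h _

theorem total {p : ℕ} (hp : p.Prime) (k : ℕ) : ∀ {g x y : P}, g ^ p ^ k = 1 → x ∈ zpowers g →
    y ∈ zpowers g → x ∈ zpowers y ∨ y ∈ zpowers x := by
  induction k with
  | zero =>
    intro g x y hg hx _
    rw [pow_zero, pow_one] at hg
    rw [hg, zpowers_one_eq_bot, mem_bot] at hx
    exact Or.inl (hx ▸ one_mem _)
  | succ k ih =>
    intro g x y hg hx hy
    have key : ∀ z ∈ zpowers g, zpowers g ≤ zpowers z ∨ z ∈ zpowers (g ^ p) := by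
      rintro _ ⟨m, rfl⟩
      by_cases hm : (p : ℤ) ∣ m
      · obtain ⟨c, rfl⟩ := hm
        exact Or.inr ⟨c, by simp only [zpow_mul, zpow_natCast]⟩
      · refine Or.inl (zpowers_le.2 (mem_zpowers_zpow_iff.2 ?_))
        obtain ⟨j, -, hj⟩ := (Nat.dvd_prime_pow hp).1 (orderOf_dvd_of_pow_eq_one hg)
        rw [hj, Int.gcd_comm, Int.gcd_eq_natAbs, Int.natAbs_natCast]
        exact Nat.Coprime.pow_left j ((Nat.Prime.coprime_iff_not_dvd hp).2 fun h =>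
          hm (Int.natCast_dvd.2 h))
    rcases key x hx with h1 | h1
    · exact Or.inr (h1 hy)
    rcases key y hy with h2 | h2
    · exact Or.inl (h2 hx)
    exact ih (by rw [← pow_mul, ← pow_succ', hg]) h1 h2

theorem fix_zpowers {T : MulAut P} {g x : P} (h : T g = g) (hx : x ∈ zpowers g) : T x = x := by
  obtain ⟨m, rfl⟩ := hx
  simp only [map_zpow, h]

theorem inv_zpowers {T : MulAut P} {g x : P} (h : T g = g⁻¹) (hx : x ∈ zpowers g) : T x = x⁻¹ := by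
  obtain ⟨m, rfl⟩ := hx
  simp only [map_zpow, h, inv_zpow]

/-- in a cyclic `p`-group no automorphism fixes one element and inverts another -/
theorem nocyc {p : ℕ} (hp : p.Prime) (hP : IsPGroup p P) (ho : Odd (Nat.card P)) {T : MulAut P}
    {g x y : P} (hx : x ∈ zpowers g) (hy : y ∈ zpowers g) (h1 : T x = x) (h2 : T y = y⁻¹) :
    x = 1 ∨ y = 1 := by
  obtain ⟨k, hk⟩ := hP g
  rcases total hp k hk hx hy with h | h
  · exact Or.inl (eq_one_of_inv ho (h1.symm.trans (inv_zpowers h2 h)))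
  · exact Or.inr (eq_one_of_inv ho ((fix_zpowers h1 h).symm.trans h2))

variable [Finite P] {I : Subgroup (MulAut P)}

theorem gen (ho : Odd (Nat.card P)) [Group.IsNilpotent P] (hc : ∀ S ∈ I, ∀ T ∈ I, S * T = T * S)
    (h2 : ∀ T ∈ I, T ^ 2 = 1) {Q : Subgroup P} (hQ : Inv I Q) :
    Q ≤ closure {x | x ∈ Q ∧ Eg I x} := by
  classical
  have hcx : ∀ S ∈ I, ∀ T ∈ I, ∀ x, S (T x) = T (S x) := fun S hS T hT x => by
    rw [← MulAut.mul_apply, hc S hS T hT, MulAut.mul_apply]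
  set E := closure {x | x ∈ Q ∧ Eg I x} with hE
  have hEQ : E ≤ Q := (closure_le _).2 fun x hx => hx.1
  have hEI : Inv I E := fun T hT x hx => by
    have : E ≤ E.comap T.toMonoidHom := (closure_le _).2 fun y hy => by
      change T y ∈ E
      rcases hy.2 T hT with e | e <;> rw [e]
      · exact subset_closure hy
      · exact inv_mem (subset_closure hy)
    exact this hx
  by_contra hn
  obtain ⟨M, ⟨hM1, hM2, hM3⟩, hmin⟩ := exists_minimal_of_wellFoundedLT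
    (fun M : Subgroup P => E < M ∧ M ≤ Q ∧ Inv I M) ⟨Q, lt_of_le_not_ge hEQ hn, le_rfl, hQ⟩
  have hN : M ≤ 𝒩(E) := by
    refine (hmin ⟨lt_inf_norm_of_nilpotent inferInstance hM1, inf_le_left.trans hM2,
      fun T hT x hx => ⟨hM3 T hT x hx.1, mem_normalizer_iff.2 fun y => ?_⟩⟩ inf_le_left).trans
      inf_le_right
    have h3 : ∀ y, y ∈ E ↔ T y ∈ E := fun y =>
      ⟨hEI T hT y, fun h => tt (h2 T hT) y ▸ hEI T hT _ h⟩
    rw [h3, mem_normalizer_iff.1 hx.2 (T y), h3 (T x * y * (T x)⁻¹)]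
    simp only [map_mul, map_inv, tt (h2 T hT)]
  have hconj : ∀ x ∈ M, ∀ e ∈ E, x * e * x⁻¹ ∈ E := fun x hx e he =>
    (mem_normalizer_iff.1 (hN hx) e).1 he
  have hdich : ∀ T ∈ I, (∀ x ∈ M, x⁻¹ * T x ∈ E) ∨ ∀ x ∈ M, x * T x ∈ E := fun T hT => by
    let MT : Subgroup P :=
      { carrier := {x | x ∈ M ∧ x⁻¹ * T x ∈ E}
        one_mem' := ⟨one_mem _, by simp⟩
        mul_mem' := by
          rintro a b ⟨a1, a2⟩ ⟨b1, b2⟩
          refine ⟨mul_mem a1 b1, ?_⟩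
          convert mul_mem (hconj _ (inv_mem b1) _ a2) b2 using 1
          rw [map_mul]; group
        inv_mem' := by
          rintro a ⟨a1, a2⟩
          refine ⟨inv_mem a1, ?_⟩
          convert hconj _ a1 _ (inv_mem a2) using 1
          rw [map_inv]; group }
    have h3 : E ≤ MT := fun x hx => ⟨hM1.le hx, mul_mem (inv_mem hx) (hEI T hT x hx)⟩
    rcases h3.eq_or_lt with h4 | h4
    · refine Or.inr fun x hx => ?_
      obtain ⟨f, hf, h5, h6⟩ := sqrt_step ho (h2 T hT) x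
      have h7 : f ∈ M := zpowers_le.2 (mul_mem (inv_mem hx) (hM3 T hT x hx)) hf
      have h8 : x * f ∈ E := h4 ▸ (⟨mul_mem hx h7, by rw [h5]; simp⟩ : x * f ∈ MT)
      rw [map_mul, h6, mul_inv_eq_iff_eq_mul] at h5
      convert mul_mem (hconj _ hx _ h8) h8 using 1
      rw [h5]; group
    · refine Or.inl fun x hx => (hmin ⟨h4, fun y hy => hM2 hy.1, fun S hS y hy =>
        ⟨hM3 S hS y hy.1, ?_⟩⟩ (fun y hy => hy.1) hx).2
      rw [hcx T hT S hS, ← map_inv, ← map_mul]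
      exact hEI S hS _ hy.2
  have : Finite I := inferInstance
  obtain ⟨x₀, hx₀, hx₀'⟩ := SetLike.exists_of_lt hM1
  obtain ⟨x, ⟨hx, hx'⟩, hmax⟩ := Set.exists_max_image {x | x ∈ M ∧ x ∉ E}
    (fun x => {T : I | (T : MulAut P) x = x}.ncard) (Set.toFinite _) ⟨x₀, hx₀, hx₀'⟩
  have hfix : ∀ T ∈ I, x⁻¹ * T x ∈ E → T x = x := fun T hT h => by
    by_contra hne
    obtain ⟨f, hf, h5, -⟩ := sqrt_step ho (h2 T hT) x
    have h7 : f ∈ E := zpowers_le.2 h hf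
    refine (hmax (x * f) ⟨mul_mem hx (hM1.le h7), fun h8 => hx' (by
      simpa using mul_mem h8 (inv_mem h7))⟩).not_gt (Set.ncard_lt_ncard ⟨fun S hS => ?_,
        fun h8 => hne (h8 (show (⟨T, hT⟩ : I) ∈ {T : I | (T : MulAut P) (x * f) = x * f} from h5))⟩)
    have hS : (S : MulAut P) x = x := hS
    change (S : MulAut P) (x * f) = x * f
    rw [map_mul, hS, fix_zpowers (g := x⁻¹ * T x) _ hf]
    rw [map_mul, map_inv, hcx S S.2 T hT, hS]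
  by_cases hall : ∀ T ∈ I, T x = x
  · exact hx' (subset_closure ⟨hM2 hx, fun T hT => Or.inl (hall T hT)⟩)
  push Not at hall
  obtain ⟨T₀, hT₀, h0⟩ := hall
  have hinv : ∀ T ∈ I, T x ≠ x → x * T x ∈ E := fun T hT h =>
    ((hdich T hT).resolve_left fun h1 => h (hfix T hT (h1 x hx))) x hx
  have hw : x * (T₀ x)⁻¹ ∈ E := subset_closure ⟨mul_mem (hM2 hx) (inv_mem (hQ T₀ hT₀ x (hM2 hx))),
    fun T hT => by
      by_cases h : T x = x
      · exact Or.inl (by rw [map_mul, map_inv, hcx T hT T₀ hT₀, h])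
      · have h3 : T₀ (T x) = x := by
          refine hfix (T₀ * T) (mul_mem hT₀ hT) ?_
          have h4 := hEI T₀ hT₀ _ (hinv T hT h)
          convert mul_mem (hconj _ (inv_mem hx) _ (inv_mem (hinv T₀ hT₀ h0))) h4 using 1
          rw [map_mul, MulAut.mul_apply]; group
        have h4 : T x = T₀ x := by
          have := congrArg T₀ h3
          rwa [tt (h2 T₀ hT₀)] at this
        exact Or.inr (by rw [map_mul, map_inv, hcx T hT T₀ hT₀, h3, h4, mul_inv_rev, inv_inv])⟩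
  refine hx' (mem_of_sq ho ?_)
  convert mul_mem hw (hconj _ (hM3 T₀ hT₀ x hx) _ (hinv T₀ hT₀ h0)) using 1
  group

theorem gen_top (ho : Odd (Nat.card P)) [Group.IsNilpotent P]
    (hc : ∀ S ∈ I, ∀ T ∈ I, S * T = T * S) (h2 : ∀ T ∈ I, T ^ 2 = 1) :
    closure {x | Eg I x} = ⊤ :=
  top_unique ((gen ho hc h2 (Q := ⊤) fun _ _ _ _ => mem_top _).trans
    (closure_mono fun _ hx => hx.2))

omit [Finite P] in
theorem ext_of_closure {s : Set P} (hs : closure s = ⊤) {S T : MulAut P}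
    (h : ∀ x ∈ s, S x = T x) : S = T :=
  MulEquiv.toMonoidHom_injective (MonoidHom.eq_of_eqOn_dense hs h)

theorem ex_inv (ho : Odd (Nat.card P)) [Group.IsNilpotent P]
    (hc : ∀ S ∈ I, ∀ T ∈ I, S * T = T * S) (h2 : ∀ T ∈ I, T ^ 2 = 1) {T : MulAut P} (hT : T ∈ I)
    (h1 : T ≠ 1) : ∃ x, x ≠ 1 ∧ Eg I x ∧ T x = x⁻¹ := by
  by_contra hn
  push Not at hn
  refine h1 (ext_of_closure (gen_top ho hc h2) fun x hx => ?_)
  by_cases e : x = 1
  · rw [e, map_one, map_one]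
  · exact (hx T hT).resolve_right (hn x e hx)

omit [Finite P] in
theorem pigeon (h8 : Nat.card I = 8) (h2 : ∀ T ∈ I, T ^ 2 = 1) {x y : P} (hx : Eg I x)
    (hy : Eg I y) : ∃ T ∈ I, T ≠ 1 ∧ T x = x ∧ T y = y := by
  classical
  have : Finite I := Nat.finite_of_card_ne_zero (by omega)
  have := Fintype.ofFinite I
  obtain ⟨S, S', hne, e⟩ := Fintype.exists_ne_map_eq_of_card_lt
    (fun T : I => (decide ((T : MulAut P) x = x), decide ((T : MulAut P) y = y)))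
    (by rw [← Nat.card_eq_fintype_card (α := I), h8]; decide)
  simp only [Prod.mk.injEq, decide_eq_decide] at e
  have key : ∀ z, Eg I z → ((S : MulAut P) z = z ↔ (S' : MulAut P) z = z) →
      ((S : MulAut P)⁻¹ * S') z = z := fun z hz h => by
    rw [MulAut.mul_apply, MulAut.inv_apply, MulEquiv.symm_apply_eq]
    by_cases h1 : (S : MulAut P) z = z
    · rw [h1, h.1 h1]
    · rw [(hz _ S.2).resolve_left h1, (hz _ S'.2).resolve_left fun h3 => h1 (h.2 h3)]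
  exact ⟨_, mul_mem (inv_mem S.2) S'.2, fun h => hne (Subtype.ext (inv_mul_eq_one.1 h)),
    key x hx e.1, key y hy e.2⟩

omit [Finite P] in
theorem adjust {T C : MulAut P} (hT : T ∈ I) (hC : C ∈ I) {x : P} (hx : Eg I x) (h : C x = x⁻¹) :
    ∃ T' ∈ I, T' x = x ∧ ∀ y, C y = y → T' y = T y := by
  rcases hx T hT with e | e
  · exact ⟨T, hT, e, fun _ _ => rfl⟩
  · exact ⟨T * C, mul_mem hT hC, by rw [MulAut.mul_apply, h, map_inv, e, inv_inv],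
      fun y hy => by rw [MulAut.mul_apply, hy]⟩

/-- dual bases -/
structure Du (T₁ T₂ T₃ : MulAut P) (x₁ x₂ x₃ : P) : Prop where
  n1 : x₁ ≠ 1
  n2 : x₂ ≠ 1
  n3 : x₃ ≠ 1
  a11 : T₁ x₁ = x₁⁻¹
  a12 : T₁ x₂ = x₂
  a13 : T₁ x₃ = x₃
  a21 : T₂ x₁ = x₁
  a22 : T₂ x₂ = x₂⁻¹
  a23 : T₂ x₃ = x₃
  a31 : T₃ x₁ = x₁
  a32 : T₃ x₂ = x₂
  a33 : T₃ x₃ = x₃⁻¹

theorem exists_du (ho : Odd (Nat.card P)) [Group.IsNilpotent P] (h8 : Nat.card I = 8)
    (hc : ∀ S ∈ I, ∀ T ∈ I, S * T = T * S) (h2 : ∀ T ∈ I, T ^ 2 = 1) :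
    ∃ T₁ ∈ I, ∃ T₂ ∈ I, ∃ T₃ ∈ I, ∃ x₁ x₂ x₃, Du T₁ T₂ T₃ x₁ x₂ x₃ := by
  have e1 : Eg I (1 : P) := fun T _ => Or.inl (map_one T)
  obtain ⟨A, hA, A1, -⟩ := pigeon h8 h2 e1 e1
  obtain ⟨x₁, n1, g1, a1⟩ := ex_inv ho hc h2 hA A1
  obtain ⟨B, hB, B1, b1, -⟩ := pigeon h8 h2 g1 e1
  obtain ⟨x₂, n2, g2, b2⟩ := ex_inv ho hc h2 hB B1
  obtain ⟨C, hC, C1, c1, c2⟩ := pigeon h8 h2 g1 g2
  obtain ⟨x₃, n3, g3, c3⟩ := ex_inv ho hc h2 hC C1
  obtain ⟨B', hB', b3, hb⟩ := adjust hB hC g3 c3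
  obtain ⟨A', hA', a2, ha⟩ := adjust hA hB g2 b2
  obtain ⟨A'', hA'', a3, ha'⟩ := adjust hA' hC g3 c3
  exact ⟨A'', hA'', B', hB', C, hC, x₁, x₂, x₃, n1, n2, n3, by rw [ha' _ c1, ha _ b1, a1],
    by rw [ha' _ c2, a2], a3, by rw [hb _ c1, b1], by rw [hb _ c2, b2], b3, c1, c2, c3⟩

omit [Finite P] in
theorem Du.rot {T₁ T₂ T₃ : MulAut P} {x₁ x₂ x₃ : P} (h : Du T₁ T₂ T₃ x₁ x₂ x₃) :
    Du T₂ T₃ T₁ x₂ x₃ x₁ :=
  ⟨h.n2, h.n3, h.n1, h.a22, h.a23, h.a21, h.a32, h.a33, h.a31, h.a12, h.a13, h.a11⟩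

omit [Finite P] in
theorem Du.broad {p : ℕ} (hp : p.Prime) (hP : IsPGroup p P) (ho : Odd (Nat.card P))
    {T₁ T₂ T₃ : MulAut P} {x₁ x₂ x₃ : P} (h : Du T₁ T₂ T₃ x₁ x₂ x₃) :
    ¬ ∃ g : P, ∀ x : P, (T₁ x = x ↔ x ∈ zpowers g) := fun ⟨_, hg⟩ =>
  (nocyc hp hP ho ((hg _).1 h.a13) ((hg _).1 h.a12) h.a23 h.a22).elim h.n3 h.n2

omit [Finite P] in
theorem Du.ne_one (ho : Odd (Nat.card P)) {T₁ T₂ T₃ : MulAut P} {x₁ x₂ x₃ : P}
    (h : Du T₁ T₂ T₃ x₁ x₂ x₃) : T₁ ≠ 1 := fun e =>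
  h.n1 (eq_one_of_inv ho (by rw [← h.a11, e, MulAut.one_apply]))

omit [Finite P] in
theorem Du.ne (ho : Odd (Nat.card P)) {T₁ T₂ T₃ : MulAut P} {x₁ x₂ x₃ : P}
    (h : Du T₁ T₂ T₃ x₁ x₂ x₃) : T₁ ≠ T₂ := fun e =>
  h.n1 (eq_one_of_inv ho (by rw [← h.a11, e, h.a21]))

omit [Finite P] in
theorem Du.mul_ne_one (ho : Odd (Nat.card P)) {T₁ T₂ T₃ : MulAut P} {x₁ x₂ x₃ : P}
    (h : Du T₁ T₂ T₃ x₁ x₂ x₃) : T₂ * T₃ ≠ 1 := fun e =>
  h.n2 (eq_one_of_inv ho (by rw [← h.a22, ← h.a32, ← MulAut.mul_apply, e, h.a32, MulAut.one_apply]))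

omit [Finite P] in
/-- a generator of a cyclic fixed point group -/
theorem eg_of_cyc {p : ℕ} (hp : p.Prime) (hP : IsPGroup p P) (ho : Odd (Nat.card P))
    (hc : ∀ S ∈ I, ∀ T ∈ I, S * T = T * S) (h2 : ∀ T ∈ I, T ^ 2 = 1) {U : MulAut P} (hU : U ∈ I)
    {g : P} (hg : ∀ x, U x = x ↔ x ∈ zpowers g) : Eg I g := fun T hT => by
  obtain ⟨f, hf, h3, h4⟩ := sqrt_step ho (h2 T hT) g
  have h5 : U g = g := (hg g).2 (mem_zpowers g)
  have h6 : f ∈ zpowers g := (hg f).1 (fix_zpowers (by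
    rw [map_mul, map_inv, ← MulAut.mul_apply _ U T, hc U hU T hT, MulAut.mul_apply, h5]) hf)
  rcases nocyc hp hP ho (mul_mem (mem_zpowers g) h6) h6 h3 h4 with e | e
  · rw [eq_inv_of_mul_eq_one_left e, map_inv, h4]
    exact Or.inr rfl
  · rw [e, mul_one] at h3
    exact Or.inl h3

omit [Finite P] in
theorem Du.repl (ho : Odd (Nat.card P)) {T₁ T₂ T₃ : MulAut P} {x₁ x₂ x₃ g : P}
    (h : Du T₁ T₂ T₃ x₁ x₂ x₃) (h1 : T₁ ∈ I) (h2 : T₂ ∈ I) (h3 : T₃ ∈ I) (hg : Eg I g)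
    (hx : x₁ ∈ zpowers g) : Du T₁ T₂ T₃ g x₂ x₃ := by
  have k1 : ∀ T ∈ I, T x₁ = x₁ → T g = g := fun T hT e => (hg T hT).resolve_right fun e' =>
    h.n1 (eq_one_of_inv ho (e.symm.trans (inv_zpowers e' hx)))
  refine ⟨fun e => h.n1 (by simpa [e] using hx), h.n2, h.n3, (hg _ h1).resolve_left fun e =>
    h.n1 (eq_one_of_inv ho ((fix_zpowers e hx).symm.trans h.a11)), h.a12, h.a13, k1 _ h2 h.a21,
    h.a22, h.a23, k1 _ h3 h.a31, h.a32, h.a33⟩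

omit [Finite P] in
theorem Du.indep {A : Type*} [CommGroup A] {p : ℕ} [Fact p.Prime] (hP : IsPGroup p A) (ho : Odd (Nat.card A))
    {T₁ T₂ T₃ : MulAut A} {x₁ x₂ x₃ : A} (h : Du T₁ T₂ T₃ x₁ x₂ x₃) {a b c : ℤ}
    (e : x₁ ^ a * x₂ ^ b * x₃ ^ c = 1) : (a : ZMod p) = 0 := by
  have h1 := congrArg T₁ e
  simp only [map_mul, map_zpow, h.a11, h.a12, h.a13, map_one] at h1
  have h2 : x₁ ^ a = 1 := eq_one_of_inv ho (by
    rw [← inv_zpow]
    exact mul_right_cancel (mul_right_cancel (e.trans h1.symm)))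
  rw [ZMod.intCast_zmod_eq_zero_iff_dvd]
  exact (Int.natCast_dvd_natCast.2 (hP.dvd_orderOf h.n1)).trans (orderOf_dvd_iff_zpow_eq_one.2 h2)

omit [Finite P] in
theorem Du.not_two {A : Type*} [CommGroup A] {p : ℕ} (hp : p.Prime) (hP : IsPGroup p A)
    (ho : Odd (Nat.card A)) {T₁ T₂ T₃ : MulAut A} {x₁ x₂ x₃ : A} (h : Du T₁ T₂ T₃ x₁ x₂ x₃)
    (hg : closure {x₁, x₂, x₃} = ⊤) : ¬ ∃ a b : A, closure {a, b} = ⊤ := by
  rintro ⟨a, b, hab⟩
  have := Fact.mk hp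
  have h3 : ∀ x : A, ∃ i j k : ℤ, x = x₁ ^ i * x₂ ^ j * x₃ ^ k := fun x => by
    have hx : x ∈ closure {x₁, x₂, x₃} := hg ▸ mem_top x
    rw [Set.insert_eq, Subgroup.closure_union, ← zpowers_eq_closure, mem_sup] at hx
    obtain ⟨_, ⟨i, rfl⟩, z, hz, rfl⟩ := hx
    obtain ⟨j, k, rfl⟩ := mem_closure_pair.1 hz
    exact ⟨i, j, k, (mul_assoc _ _ _).symm⟩
  obtain ⟨a1, a2, a3, ea⟩ := h3 a
  obtain ⟨b1, b2, b3, eb⟩ := h3 b
  have h4 : ∀ u v w : ℤ, ∃ i j : ZMod p, i * a1 + j * b1 = u ∧ i * a2 + j * b2 = v ∧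
      i * a3 + j * b3 = w := fun u v w => by
    obtain ⟨i, j, e⟩ := mem_closure_pair.1 (hab ▸ mem_top (x₁ ^ u * x₂ ^ v * x₃ ^ w))
    have e1 : x₁ ^ (i * a1 + j * b1 - u) * x₂ ^ (i * a2 + j * b2 - v) *
        x₃ ^ (i * a3 + j * b3 - w) = 1 := by
      rw [← mul_inv_eq_one, ea, eb] at e
      rw [← e]
      simp only [zpow_sub, zpow_add, mul_zpow, ← zpow_mul, mul_inv, mul_comm i, mul_comm j]
      ac_rfl
    have k1 := h.indep hP ho e1
    have k2 := h.rot.indep hP ho (show _ * _ * _ = 1 by rw [← e1]; ac_rfl)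
    have k3 := h.rot.rot.indep hP ho (show _ * _ * _ = 1 by rw [← e1]; ac_rfl)
    push_cast at k1 k2 k3
    exact ⟨i, j, by linear_combination k1, by linear_combination k2, by linear_combination k3⟩
  obtain ⟨i1, j1, e11, e12, e13⟩ := h4 1 0 0
  obtain ⟨i2, j2, e21, e22, e23⟩ := h4 0 1 0
  obtain ⟨i3, j3, e31, e32, e33⟩ := h4 0 0 1
  have key : (i1 * a1 + j1 * b1) * ((i2 * a2 + j2 * b2) * (i3 * a3 + j3 * b3) -
        (i2 * a3 + j2 * b3) * (i3 * a2 + j3 * b2)) -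
      (i1 * a2 + j1 * b2) * ((i2 * a1 + j2 * b1) * (i3 * a3 + j3 * b3) -
        (i2 * a3 + j2 * b3) * (i3 * a1 + j3 * b1)) +
      (i1 * a3 + j1 * b3) * ((i2 * a1 + j2 * b1) * (i3 * a2 + j3 * b2) -
        (i2 * a2 + j2 * b2) * (i3 * a1 + j3 * b1)) = 0 := by ring
  rw [e11, e12, e13, e21, e22, e23, e31, e32, e33] at key
  simp at key

end Cfsg.Agent.H13.Eig
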