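import Cfsg.Agent.H49.Prod
import Cfsg.Agent.H72.Core
import Cfsg.Agent.H42.SylIn

/-! The Tutte–Sims–Glauberman bound for a `p`-group meeting a conjugate in index `p`. -/

set_option autoImplicit false
set_option linter.unusedSectionVars false

namespace Cfsg.Agent.H13.Sims

open Subgroup Cfsg.Agent.H49

variable {G : Type*} [Group G] [Finite G] {p : ℕ}

/-- `H ⊓ N` is normal of index `p` in `H`. -/
structure Step (p : ℕ) (H N : Subgroup G) : Prop where
  norm : H ≤ 𝒩(H ⊓ N)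
  idx : (H ⊓ N).relIndex H = p

theorem Step.conj {H N : Subgroup G} (h : Step p H N) (g : G) : Step p (cj g H) (cj g N) :=
  ⟨by rw [← cj_inf, ← cj_normalizer]; exact cj_mono g h.norm, by
    rw [← cj_inf, ← h.idx]; exact H42.relIndex_cj g _ _⟩

theorem Step.gen (hp : p.Prime) {H N : Subgroup G} (h : Step p H N) {c x : G} (hc : c ∈ H)
    (hc' : c ∉ N) (hx : x ∈ H) : ∃ e : ℤ, (c ^ e)⁻¹ * x ∈ N := by
  haveI := Fact.mk hp
  haveI := normal_subgroupOf h.norm
  have := zpowers_eq_top_of_prime_card (G := H ⧸ (H ⊓ N).subgroupOf H) h.idx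
    (g := (⟨c, hc⟩ : H)) (fun e => hc' ((QuotientGroup.eq_one_iff _).1 e).2)
  obtain ⟨e, he⟩ := (this ▸ mem_top ((⟨x, hx⟩ : H) : H ⧸ (H ⊓ N).subgroupOf H) :
    _ ∈ zpowers (((⟨c, hc⟩ : H)) : H ⧸ (H ⊓ N).subgroupOf H))
  refine ⟨e, ?_⟩
  have he' : (((⟨c, hc⟩ : H) ^ e : H) : H ⧸ (H ⊓ N).subgroupOf H) = (⟨x, hx⟩ : H) := he
  exact (QuotientGroup.eq.1 he').2

theorem Step.comm (hp : p.Prime) {H N : Subgroup G} (h : Step p H N) {x y : G} (hx : x ∈ H)
    (hy : y ∈ H) : x * y * x⁻¹ * y⁻¹ ∈ N := by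
  by_cases hc : y ∈ N
  · exact mul_mem (conj_mem_of_norm h.norm hx (mem_inf.2 ⟨hy, hc⟩)).2 (inv_mem hc)
  · obtain ⟨e, he⟩ := h.gen hp hy hc hx
    have hz : (y ^ e)⁻¹ * x ∈ H ⊓ N := mem_inf.2 ⟨mul_mem (inv_mem (zpow_mem hy e)) hx, he⟩
    have := mul_mem (conj_mem_of_norm h.norm (zpow_mem hy e) hz)
      (conj_mem_of_norm h.norm (zpow_mem hy (e + 1)) (inv_mem hz))
    rw [show y ^ e * ((y ^ e)⁻¹ * x) * (y ^ e)⁻¹ * (y ^ (e + 1) * ((y ^ e)⁻¹ * x)⁻¹ * (y ^ (e + 1))⁻¹) =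
      x * y * x⁻¹ * y⁻¹ by group] at this
    exact (mem_inf.1 this).2

theorem Step.mem_of_coprime {H N : Subgroup G} (h : Step p H N) {x : G} (hx : x ∈ H)
    (ho : (orderOf x).Coprime p) : x ∈ N := by
  haveI := normal_subgroupOf h.norm
  have h1 : orderOf ((⟨x, hx⟩ : H) : H ⧸ (H ⊓ N).subgroupOf H) ∣ p := h.idx ▸ orderOf_dvd_natCard _
  have h2 : orderOf ((⟨x, hx⟩ : H) : H ⧸ (H ⊓ N).subgroupOf H) ∣ orderOf x := by
    rw [← orderOf_mk x hx]
    exact orderOf_map_dvd (QuotientGroup.mk' _) _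
  exact ((QuotientGroup.eq_one_iff _).1 (orderOf_eq_one_iff.1 (Nat.eq_one_of_dvd_coprimes ho h2 h1))).2

theorem Step.card (hp : p.Prime) {H N K : Subgroup G} (h : Step p H N) (hK : K ≤ H)
    (hn : ¬ K ≤ N) : Nat.card K = Nat.card ↥(K ⊓ N) * p := by
  haveI := normal_subgroupOf h.norm
  have h1 := relIndex_dvd_index_of_normal ((H ⊓ N).subgroupOf H) (K.subgroupOf H)
  rw [relIndex_subgroupOf hK] at h1
  have h2 : (H ⊓ N).relIndex K = (K ⊓ N).relIndex K := by
    rw [← inf_relIndex_right (H ⊓ N), inf_right_comm, inf_eq_right.2 hK]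
  rw [h2, show ((H ⊓ N).subgroupOf H).index = p from h.idx] at h1
  rcases (Nat.dvd_prime hp).1 h1 with e | e
  · exact absurd ((relIndex_eq_one.1 e).trans inf_le_right) hn
  · rw [← e, H42.card_mul_relIndex inf_le_left]

/-- Intersection over an interval. -/
def I (Q : ℤ → Subgroup G) (a b : ℤ) : Subgroup G where
  carrier := {x | ∀ k, a ≤ k → k ≤ b → x ∈ Q k}
  one_mem' := fun _ _ _ => one_mem _
  mul_mem' := fun hx hy k h1 h2 => mul_mem (hx k h1 h2) (hy k h1 h2)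
  inv_mem' := fun hx k h1 h2 => inv_mem (hx k h1 h2)

variable {Q : ℤ → Subgroup G}

theorem I_mono {a b a' b' : ℤ} (h1 : a ≤ a') (h2 : b' ≤ b) : I Q a b ≤ I Q a' b' :=
  fun _ hx k e1 e2 => hx k (h1.trans e1) (e2.trans h2)

theorem I_succ {a b : ℤ} {x : G} (hx : x ∈ I Q a b) (h : x ∈ Q (b + 1)) : x ∈ I Q a (b + 1) :=
  fun k e1 e2 => (eq_or_lt_of_le e2).elim (fun e => e ▸ h) fun e => hx k e1 (by omega)

theorem I_rev (c a b : ℤ) : I (fun k => Q (c - k)) a b = I Q (c - b) (c - a) := by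
  ext x
  exact ⟨fun h k e1 e2 => by simpa using h (c - k) (by omega) (by omega),
    fun h k e1 e2 => h (c - k) (by omega) (by omega)⟩

/-- A chain of subgroups, neighbours meeting in normal subgroups of index `p`. -/
structure Fam (p : ℕ) (Q : ℤ → Subgroup G) : Prop where
  prime : p.Prime
  up : ∀ k, Step p (Q k) (Q (k + 1))
  down : ∀ k, Step p (Q k) (Q (k - 1))

theorem Fam.rev (h : Fam p Q) (c : ℤ) : Fam p fun k => Q (c - k) :=
  ⟨h.prime, fun k => by simpa [sub_add_eq_sub_sub] using h.down (c - k),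
    fun k => by simpa [sub_sub_eq_add_sub, add_sub_right_comm] using h.up (c - k)⟩

theorem Fam.comm (h : Fam p Q) {a b : ℤ} (hab : a ≤ b) {x y : G} (hx : x ∈ I Q a b)
    (hy : y ∈ I Q a b) : x * y * x⁻¹ * y⁻¹ ∈ I Q (a - 1) (b + 1) := fun k e1 e2 => by
  by_cases e : k ≤ b
  · by_cases e' : a ≤ k
    · exact mul_mem (mul_mem (mul_mem (hx k e' e) (hy k e' e)) (inv_mem (hx k e' e)))
        (inv_mem (hy k e' e))
    · rw [show k = a - 1 by omega]
      exact (h.down a).comm h.prime (hx a le_rfl hab) (hy a le_rfl hab)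
  · rw [show k = b + 1 by omega]
    exact (h.up b).comm h.prime (hx b hab le_rfl) (hy b hab le_rfl)

/-- generation by the smallest intersections -/
def Ind (Q : ℤ → Subgroup G) (t : ℤ) : Prop :=
  ∀ (W : Subgroup G) (a b : ℤ), a ≤ b → b - a < t →
    (∀ i, b - t < i → i ≤ a → I Q i (i + t - 1) ≤ W) → I Q a b ≤ W

theorem Ind.rev {t : ℤ} (h : Ind Q t) (c : ℤ) : Ind (fun k => Q (c - k)) t := fun W a b h1 h2 h3 => by
  rw [I_rev]
  refine h W _ _ (by omega) (by omega) fun i e1 e2 => ?_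
  have := h3 (c - i - t + 1) (by omega) (by omega)
  rw [I_rev] at this
  convert this using 2 <;> ring

theorem Fam.ind (h : Fam p Q) {t : ℤ}
    (hs : ∀ a b, a ≤ b → b - a < t → ∃ c ∈ I Q a b, c ∉ Q (b + 1)) : Ind Q t := by
  intro W a b h1 h2 h3
  obtain ⟨d, hd⟩ : ∃ d : ℕ, t - 1 - (b - a) = d := ⟨(t - 1 - (b - a)).toNat, by omega⟩
  induction d generalizing a b with
  | zero => rw [show b = a + t - 1 by omega]; exact h3 a (by omega) le_rfl
  | succ d ih =>
    intro x hx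
    obtain ⟨c, hc, hc'⟩ := hs (a - 1) b (by omega) (by omega)
    obtain ⟨e, he⟩ := (h.up b).gen h.prime (hc b (by omega) le_rfl) hc' (hx b h1 le_rfl)
    have c1 := ih (a - 1) b (by omega) (by omega) (fun i e1 e2 => h3 i e1 (by omega)) (by omega) hc
    have c2 := ih a (b + 1) (by omega) (by omega) (fun i e1 e2 => h3 i (by omega) e2) (by omega)
      (I_succ (mul_mem (inv_mem (zpow_mem (I_mono (by omega) le_rfl hc) e)) hx) he)
    simpa using mul_mem (zpow_mem c1 e) c2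

theorem Fam.claim (h : Fam p Q) {t u b : ℤ} (hi : Ind Q t) (hb : ∀ a, I Q a (a + t) = ⊥)
    (hc : ∀ i k, i - k < u → k - i < u → I Q i (i + t - 1) ≤ 𝒞(I Q k (k + t - 1)))
    (hn : ∀ i, ¬ I Q (i + u) (i + u + t - 1) ≤ 𝒞(I Q i (i + t - 1)))
    {x y : G} (hx : x ∈ I Q 0 (0 + t - 1)) (hy : y ∈ I Q u (u + t - 1)) (htb : t ≤ b)
    (h1 : x * y * x⁻¹ * y⁻¹ ∈ I Q (u - 1) b) (h2 : x * y * x⁻¹ * y⁻¹ ∉ Q (b + 1)) (hu : 0 < u) :
    2 * t ≤ b + 1 + u := by
  by_contra hlt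
  have hbu : b - (u - 1) < t := by
    by_contra e
    have := I_mono (a' := u - 1) (b' := u - 1 + t) le_rfl (by omega) h1
    rw [hb, mem_bot] at this
    exact h2 (this ▸ one_mem _)
  obtain ⟨r, hr⟩ : ∃ r, r = b - t + 1 := ⟨_, rfl⟩
  refine hn r fun w hw v hv => ?_
  have hd := h.comm (a := r + u) (b := t - 1) (by omega) (I_mono le_rfl (by omega) hw)
    (I_mono (by omega) (by omega) hx)
  have dy : y * (w * x * w⁻¹ * x⁻¹) = w * x * w⁻¹ * x⁻¹ * y :=
    hi 𝒞(I Q u (u + t - 1)) _ _ (by omega) (by omega)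
      (fun i e1 e2 => hc i u (by omega) (by omega)) hd y hy
  have wy : y * w = w * y := hc (r + u) u (by omega) (by omega) hw y hy
  have dc : (w * x * w⁻¹ * x⁻¹) * (x * y * x⁻¹ * y⁻¹) = x * y * x⁻¹ * y⁻¹ * (w * x * w⁻¹ * x⁻¹) :=
    hi 𝒞(I Q (r + u - 1) (t - 1 + 1)) _ _ (by omega) hbu (fun i e1 e2 => cent_symm
      (hi _ _ _ (by omega) (by omega) fun k e3 e4 => hc k i (by omega) (by omega))) h1 _ hd
  have wc : x * y * x⁻¹ * y⁻¹ ∈ 𝒞[w] := by
    rw [mem_cent1]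
    generalize hdd : w * x * w⁻¹ * x⁻¹ = d at dy dc
    have e1 : w * x * w⁻¹ = d * x := by rw [← hdd]; group
    have e2 : w * y * w⁻¹ = y := by rw [← wy]; group
    have e3 : y * d⁻¹ * y⁻¹ = d⁻¹ := by
      calc _ = d⁻¹ * (d * y) * d⁻¹ * y⁻¹ := by group
        _ = _ := by rw [← dy]; group
    calc x * y * x⁻¹ * y⁻¹ * w = d * (x * y * x⁻¹ * y⁻¹) * (y * d⁻¹ * y⁻¹) * w := by
          rw [dc, e3]; group
      _ = w * x * w⁻¹ * (w * y * w⁻¹) * (w * x * w⁻¹)⁻¹ * (w * y * w⁻¹)⁻¹ * w := by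
          rw [e1, e2]; group
      _ = _ := by group
  have wz : I Q (u - 1) (b + 1) ≤ 𝒞[w] := by
    by_cases e : b + 1 - (u - 1) < t
    · exact hi _ _ _ (by omega) e fun i e1 e2 =>
        (hc i (r + u) (by omega) (by omega)).trans (cent_le_cent1 hw)
    · rw [show b + 1 = u - 1 + t by omega, hb]; exact bot_le
  have hv' : v ∈ I Q (u - 1) b := I_mono (by omega) (by omega) hv
  obtain ⟨e, he⟩ := (h.up b).gen h.prime (h1 b (by omega) le_rfl) h2 (hv' b (by omega) le_rfl)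
  have := mul_mem (zpow_mem wc e) (wz (I_succ (mul_mem (inv_mem (zpow_mem h1 e)) hv') he))
  rw [mul_inv_cancel_left] at this
  exact mem_cent1.1 this

theorem Fam.bound (h : Fam p Q) {t u : ℤ} (hi : Ind Q t) (hb : ∀ a, I Q a (a + t) = ⊥)
    (hc : ∀ i k, i - k < u → k - i < u → I Q i (i + t - 1) ≤ 𝒞(I Q k (k + t - 1)))
    (hn : ∀ i, ¬ I Q (i + u) (i + u + t - 1) ≤ 𝒞(I Q i (i + t - 1))) (hu : 0 < u) (hut : u < t) :
    2 * t ≤ 3 * u := by
  have := hn 0
  rw [zero_add, le_cent_iff] at this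
  push Not at this
  obtain ⟨y, hy, x, hx, hxy⟩ := this
  have c1 : x * y * x⁻¹ * y⁻¹ ≠ 1 := fun e => hxy (by
    calc x * y = x * y * x⁻¹ * y⁻¹ * (y * x) := by group
      _ = y * x := by rw [e, one_mul])
  have hm := h.comm (a := u) (b := t - 1) (by omega) (I_mono hu.le (by omega) hx)
    (I_mono le_rfl (by omega) hy)
  rw [sub_add_cancel] at hm
  have short : ∀ a b, x * y * x⁻¹ * y⁻¹ ∈ I Q a b → b - a < t := fun a b e => by
    by_contra n
    have := I_mono (a' := a) (b' := a + t) le_rfl (by omega) e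
    rw [hb, mem_bot] at this
    exact c1 this
  obtain ⟨b, b1, b2⟩ := Int.exists_greatest_of_bdd (P := fun b => x * y * x⁻¹ * y⁻¹ ∈ I Q (u - 1) b)
    ⟨u + t, fun z hz => by have := short _ _ hz; omega⟩ ⟨t, hm⟩
  obtain ⟨a, a1, a2⟩ := Int.exists_least_of_bdd (P := fun a => x * y * x⁻¹ * y⁻¹ ∈ I Q a t)
    ⟨0, fun z hz => by have := short _ _ hz; omega⟩ ⟨u - 1, hm⟩
  have tb := b2 t hm
  have au := a2 _ hm
  have ab := short a b fun k e1 e2 => by
    by_cases e : k ≤ t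
    · exact a1 k e1 e
    · exact b1 k (by omega) e2
  have r1 := h.claim hi hb hc hn hx hy tb b1 (fun e => by have := b2 _ (I_succ b1 e); omega) hu
  have r2 := (h.rev (u + t - 1)).claim (t := t) (u := u) (b := u + t - 1 - a) (x := y) (y := x)
    (hi.rev _) (fun a => by rw [I_rev, ← hb (u + t - 1 - (a + t))]; congr 1; ring)
    (fun i k e1 e2 => by
      rw [I_rev, I_rev, show u + t - 1 - (i + t - 1) = u - i by ring,
        show u + t - 1 - (k + t - 1) = u - k by ring, show u + t - 1 - i = u - i + t - 1 by ring,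
        show u + t - 1 - k = u - k + t - 1 by ring]
      exact hc (u - i) (u - k) (by omega) (by omega))
    (fun i e => by
      rw [I_rev, I_rev, show u + t - 1 - (i + u + t - 1) = -i by ring,
        show u + t - 1 - (i + t - 1) = -i + u by ring,
        show u + t - 1 - (i + u) = -i + t - 1 by ring,
        show u + t - 1 - i = -i + u + t - 1 by ring] at e
      exact hn (-i) (cent_symm e))
    (by rw [I_rev]; convert hy using 2 <;> ring) (by rw [I_rev]; convert hx using 2 <;> ring)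
    (by omega)
    (by
      rw [I_rev, show y * x * y⁻¹ * x⁻¹ = (x * y * x⁻¹ * y⁻¹)⁻¹ by group, inv_mem_iff]
      convert a1 using 2 <;> ring)
    (fun e => by
      rw [show y * x * y⁻¹ * x⁻¹ = (x * y * x⁻¹ * y⁻¹)⁻¹ by group, inv_mem_iff,
        show u + t - 1 - (u + t - 1 - a + 1) = a - 1 by ring] at e
      have := a2 (a - 1) fun k e1 e2 => (eq_or_lt_of_le e1).elim (fun e' => e' ▸ e)
        fun e' => a1 k (by omega) e2
      omega) hu
  omega

theorem main {P : Subgroup G} {g : G} (hp : p.Prime) (hs : Step p (cj g⁻¹ P) P) {n : ℕ} (hn : 1 ≤ n)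
    (h1 : ∀ R : Subgroup G, R ≤ P → P ≤ 𝒩(R) → g ∈ 𝒩(R) → R = ⊥)
    (h2 : ∀ z ∈ P, (∀ i : ℕ, i ≤ n → z ∈ 𝒞(cj (g ^ i)⁻¹ P)) → z = 1) :
    ∃ t : ℕ, Nat.card P = p ^ t ∧ 1 ≤ t ∧ t ≤ 3 * n ∧ t ≠ 3 * n - 1 := by
  classical
  haveI := Fact.mk hp
  have pP : IsPGroup p P := by
    refine H72.isPGroup_of_forall_coprime fun x hx ho => ?_
    have key : ∀ a : G, (∀ y ∈ P, (orderOf y).Coprime p → a * y * a⁻¹ ∈ P) →
        a ∈ 𝒩(closure {x | x ∈ P ∧ (orderOf x).Coprime p}) := fun a ha => by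
      refine mem_norm_of_cj_le ?_
      rw [cj_def, MonoidHom.map_closure, closure_le]
      rintro _ ⟨y, hy, rfl⟩
      exact subset_closure ⟨ha y hy.1 hy.2, by
        rw [orderOf_injective _ (MulAut.conj a).injective]; exact hy.2⟩
    have := h1 _ ((closure_le _).2 fun y hy => hy.1)
      (fun a ha => key a fun y hy _ => mul_mem (mul_mem ha hy) (inv_mem ha))
      (inv_mem_iff.1 (key g⁻¹ fun y hy ho => hs.mem_of_coprime (conj_mem_cj.2 hy) (by
        rwa [show g⁻¹ * y * g⁻¹⁻¹ = (MulAut.conj g⁻¹).toMonoidHom y from rfl,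
          orderOf_injective _ (MulAut.conj g⁻¹).injective])))
    rw [← mem_bot, ← this]
    exact subset_closure ⟨hx, ho⟩
  have hs' : Step p P (cj g⁻¹ P) := by
    have e : (P ⊓ cj g⁻¹ P).relIndex P = p := by
      have a1 := H42.card_mul_relIndex (inf_le_left : P ⊓ cj g⁻¹ P ≤ P)
      have a2 := H42.card_mul_relIndex (inf_le_left : cj g⁻¹ P ⊓ P ≤ cj g⁻¹ P)
      rw [hs.idx, card_cj, inf_comm, ← a1] at a2
      exact (Nat.eq_of_mul_eq_mul_left Nat.card_pos a2).symm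
    refine ⟨?_, e⟩
    obtain ⟨k, hk⟩ := IsPGroup.iff_card.1 pP
    have k0 : k ≠ 0 := by
      rintro rfl
      have := H42.card_mul_relIndex (inf_le_left : P ⊓ cj g⁻¹ P ≤ P)
      rw [e, hk, pow_zero] at this
      exact hp.one_lt.ne' (Nat.eq_one_of_mul_eq_one_left this)
    exact (normal_subgroupOf_iff_le_normalizer inf_le_left).1
      (normal_of_index_eq_minFac_card (by rw [hk, Nat.pow_minFac k0, hp.minFac_eq]; exact e))
  let Q : ℤ → Subgroup G := fun k => cj (g ^ (-k)) P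
  have Q0 : Q 0 = P := by simp [Q]
  have shQ : ∀ k l, cj (g ^ (-l)) (Q k) = Q (k + l) := fun k l => by
    simp only [Q]
    rw [← cj_mul, ← zpow_add]; congr 2; ring
  have fam : Fam p Q := ⟨hp, fun k => by
      have := hs'.conj (g ^ (-k))
      rwa [← zpow_neg_one, show cj (g ^ (-1 : ℤ)) P = Q 1 from rfl, shQ, add_comm] at this,
    fun k => by
      have := hs.conj (g ^ (-(k - 1)))
      rwa [← zpow_neg_one, show cj (g ^ (-1 : ℤ)) P = Q 1 from rfl, shQ,
        show 1 + (k - 1) = k by ring] at this⟩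
  have shI : ∀ a b l, cj (g ^ (-l)) (I Q a b) = I Q (a + l) (b + l) := fun a b l => by
    ext x
    rw [mem_cj]
    refine ⟨fun h k e1 e2 => ?_, fun h k e1 e2 => ?_⟩
    · rw [show k = k - l + l by ring, ← shQ, mem_cj]
      exact h _ (by omega) (by omega)
    · rw [← mem_cj, shQ]
      exact h _ (by omega) (by omega)
  have I0 : ∀ k, I Q k k = Q k := fun k =>
    le_antisymm (fun x hx => hx k le_rfl le_rfl) fun x hx l e1 e2 => le_antisymm e1 e2 ▸ hx
  have Isucc : ∀ m : ℕ, I Q 0 (m + 1) = I Q 0 m ⊓ Q (m + 1) := fun m =>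
    le_antisymm (le_inf (I_mono le_rfl (by omega)) fun x hx => hx _ (by omega) le_rfl)
      fun x hx => I_succ hx.1 hx.2
  have hcard : ∀ m : ℕ, (∀ j : ℕ, j < m → ¬ I Q 0 j ≤ Q (j + 1)) →
      Nat.card P = Nat.card (I Q 0 m) * p ^ m := by
    intro m
    induction m with
    | zero => intro _; rw [Nat.cast_zero, I0, Q0, pow_zero, mul_one]
    | succ m ih =>
      intro hm
      rw [ih fun j hj => hm j (by omega), (fam.up m).card hp (K := I Q 0 m)
        (fun x hx => hx m (by omega) le_rfl) (hm m (by omega)), Nat.cast_succ, Isucc]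
      ring
  have ex : ∃ j : ℕ, I Q 0 j ≤ Q (j + 1) := by
    by_contra hne
    push Not at hne
    have := hcard (Nat.card P) fun j _ => hne j
    have a1 : Nat.card P < p ^ Nat.card P := Nat.lt_pow_self hp.one_lt
    have a2 : 0 < Nat.card (I Q 0 (Nat.card P : ℕ)) := Nat.card_pos
    nlinarith
  obtain ⟨t, ht, hmin⟩ : ∃ t : ℕ, I Q 0 t ≤ Q (t + 1) ∧ ∀ j : ℕ, j < t → ¬ I Q 0 j ≤ Q (j + 1) :=
    ⟨Nat.find ex, Nat.find_spec ex, fun j hj => Nat.find_min ex hj⟩
  have hst : ∀ a b : ℤ, a ≤ b → b - a < t → ∃ c ∈ I Q a b, c ∉ Q (b + 1) := fun a b e1 e2 => by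
    obtain ⟨j, hj⟩ : ∃ j : ℕ, b = j + a := ⟨(b - a).toNat, by omega⟩
    refine SetLike.not_le_iff_exists.1 fun e => hmin j (by omega) ?_
    rw [← cj_le_cj_iff (g := g ^ (-a)), shI, shQ, zero_add, add_right_comm, ← hj]
    exact e
  have hi := fam.ind hst
  have t1 : 1 ≤ t := by
    by_contra e
    obtain rfl : t = 0 := by omega
    rw [Nat.cast_zero, I0] at ht
    have := (fam.up 0).idx
    rw [inf_eq_left.2 ht, relIndex_self] at this
    exact hp.one_lt.ne this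
  have gR : g ∈ 𝒩(I Q 0 t) := by
    refine inv_mem_iff.1 (mem_norm_of_le_cj ?_)
    rw [← zpow_neg_one, shI]
    exact fun x hx => I_mono (by omega) le_rfl (I_succ hx (ht hx))
  have allR : ∀ a, I Q a (a + t) = I Q 0 t := fun a => by
    have := shI 0 t a
    rw [cj_eq_of_mem_norm (zpow_mem gR _), zero_add, add_comm] at this
    exact this.symm
  have bot : I Q 0 t = ⊥ := by
    refine h1 _ (fun x hx => Q0 ▸ hx 0 le_rfl (by omega)) ?_ gR
    rw [← Q0, ← I0]
    refine hi _ 0 0 le_rfl (by omega) fun i _ _ => ?_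
    rw [← allR i]
    refine le_norm_iff.2 fun x hx y hy => ?_
    have := fam.comm (by omega) hx (I_mono le_rfl (by omega) hy)
    simpa using mul_mem (I_mono (by omega) (by omega) this) hy
  have hb : ∀ a, I Q a (a + t) = ⊥ := fun a => (allR a).trans bot
  have cP := hcard t hmin
  rw [bot, card_bot, one_mul] at cP
  have shC : ∀ i d : ℤ, I Q (i + d) (i + d + t - 1) ≤ 𝒞(I Q i (i + t - 1)) ↔
      I Q d (d + t - 1) ≤ 𝒞(I Q 0 (0 + t - 1)) := fun i d => by
    rw [← cj_le_cj_iff (g := g ^ (-i)) (X := I Q d _), cj_centralizer, shI, shI,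
      show d + t - 1 + i = i + d + t - 1 by ring, show 0 + t - 1 + i = i + t - 1 by ring, zero_add,
      add_comm d i]
  have exu : ∃ u : ℕ, u = t ∨ ¬ I Q u (u + t - 1) ≤ 𝒞(I Q 0 (0 + t - 1)) := ⟨t, Or.inl rfl⟩
  obtain ⟨u, hu, umin, ut⟩ : ∃ u : ℕ, (u = t ∨ ¬ I Q u (u + t - 1) ≤ 𝒞(I Q 0 (0 + t - 1))) ∧
      (∀ d : ℕ, d < u → I Q d (d + t - 1) ≤ 𝒞(I Q 0 (0 + t - 1))) ∧ u ≤ t :=
    ⟨Nat.find exu, Nat.find_spec exu, fun d hd => not_not.1 (not_or.1 (Nat.find_min exu hd)).2,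
      Nat.find_min' exu (Or.inl rfl)⟩
  have hc : ∀ i k : ℤ, i - k < u → k - i < u → I Q i (i + t - 1) ≤ 𝒞(I Q k (k + t - 1)) := by
    have half : ∀ i k : ℤ, k ≤ i → i - k < u → I Q i (i + t - 1) ≤ 𝒞(I Q k (k + t - 1)) :=
      fun i k e1 e2 => by
        obtain ⟨d, rfl⟩ : ∃ d : ℕ, i = k + d := ⟨(i - k).toNat, by omega⟩
        exact (shC k d).2 (umin d (by omega))
    intro i k e1 e2
    rcases le_total k i with e | e
    · exact half i k e e1
    · exact cent_symm (half k i e e2)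
  have u0 : 0 < u := by
    by_contra e
    obtain rfl : u = 0 := by omega
    refine hu.elim (by omega) fun e => e (le_cent_iff.2 fun x hx y hy => ?_)
    rw [Nat.cast_zero] at hx
    have := I_mono (a' := 0) (b' := 0 + t) (by omega) (by omega) (fam.comm (by omega) hy hx)
    rw [hb, mem_bot] at this
    calc y * x = y * x * y⁻¹ * x⁻¹ * (x * y) := by group
      _ = x * y := by rw [this, one_mul]
  have b1 : 2 * u ≤ t + n := by
    by_contra e
    obtain ⟨z, hz, hz'⟩ := hst (u - t) (u - t + t - 1) (by omega) (by omega)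
    have := h2 z (Q0 ▸ hz 0 (by omega) (by omega)) fun i hi' => by
      rw [← zpow_natCast, ← zpow_neg, show cj (g ^ (-(i : ℤ))) P = Q i from rfl, ← I0]
      exact cent_symm (hi _ _ _ le_rfl (by omega) fun k e1 e2 => hc k _ (by omega) (by omega)) hz
    exact hz' (this ▸ one_mem _)
  refine ⟨t, cP, t1, ?_⟩
  rcases eq_or_lt_of_le ut with e | e
  · omega
  · have := fam.bound (u := u) hi hb hc (fun i e' => hu.elim (by omega) fun n => n ((shC i u).1 e'))
      (by omega) (by omega)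
    omega

end Cfsg.Agent.H13.Sims
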