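import Cfsg.Agent.H40.TwAbs4
import Cfsg.Agent.H4.Basic
import Cfsg.Agent.H22.CoprimeQuot

/-! Fusion inside the split torus of a (twisted) group with a `BN`-pair, and automizers of
`p`-elements in sections. -/

set_option autoImplicit false

namespace Cfsg.Agent.H13

open Cfsg.Agent.H40 Subgroup

/-- conjugation between torus elements is induced by the monomial part of the Bruhat form. -/
theorem tw_exists_N_conj {A Φ I : Type*} [Group A] (T : Tw A Φ I) {g : A} (hg : g ∈ T.Fix) :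
    ∃ m ∈ T.N, m ∈ T.Fix ∧ ∀ h ∈ T.H, g * h * g⁻¹ ∈ T.H → g * h * g⁻¹ = m * h * m⁻¹ := by
  obtain ⟨u, hu, -, m, hm, hmf, u', hu', -, hv, rfl⟩ := T.bruhat_fix hg
  refine ⟨m, hm, hmf, fun h hh hh' => ?_⟩
  set h' := u * m * u' * h * (u * m * u')⁻¹ with e
  have h1 : h⁻¹ * u' * h⁻¹⁻¹ ∈ T.U := T.H_conj_XS (inv_mem hh) hu'
  have h2 : h' * u * h'⁻¹ ∈ T.U := T.H_conj_XS hh' hu
  have h3 : h' * (m * u' * m⁻¹) * h'⁻¹ ∈ T.V := T.H_conj_XS hh' hv
  have := T.nf_uniq hu h1 h2 hu' (mul_mem hm (T.H_le hh)) (mul_mem (T.H_le hh') hm)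
    (by convert hv using 1; group) (by convert h3 using 1; group) (by rw [e]; group)
  rw [eq_mul_inv_iff_mul_eq]
  exact this.2.1.symm

/-- an element normalising a set of torus elements acts on it through the twisted Weyl group. -/
theorem tw_pow_comm {A Φ I : Type*} [Group A] [Finite Φ] (T : Tw A Φ I)
    (hH : ∀ a ∈ T.H, ∀ b ∈ T.H, a * b = b * a) {g : A} (hg : g ∈ T.Fix) {Q : Set A}
    (hQ : ∀ x ∈ Q, x ∈ T.H) (hn : ∀ x ∈ Q, g * x * g⁻¹ ∈ Q) {x : A} (hx : x ∈ Q) :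
    g ^ Nat.card T.W1 * x * (g ^ Nat.card T.W1)⁻¹ = x := by
  obtain ⟨m, hm, hmf, h⟩ := tw_exists_N_conj T hg
  have key : ∀ k : ℕ, g ^ k * x * (g ^ k)⁻¹ ∈ Q ∧ g ^ k * x * (g ^ k)⁻¹ = m ^ k * x * (m ^ k)⁻¹ := by
    intro k
    induction k with
    | zero => simpa using hx
    | succ k ih =>
      have e : g ^ (k + 1) * x * (g ^ (k + 1))⁻¹ = g * (g ^ k * x * (g ^ k)⁻¹) * g⁻¹ := by
        rw [pow_succ']; group
      rw [e]
      refine ⟨hn _ ih.1, ?_⟩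
      rw [h _ (hQ _ ih.1) (hQ _ (hn _ ih.1)), ih.2, pow_succ']; group
  have hw : ∀ k : ℕ, T.w (m ^ k) = T.w m ^ k := by
    intro k
    induction k with
    | zero => simpa using T.w_one
    | succ k ih => rw [pow_succ, T.w_mul _ (pow_mem hm k) _ hm, ih, pow_succ]
  have h1 : (⟨T.w m, T.mem_W1.2 ⟨m, hm, hmf, rfl⟩⟩ : T.W1) ^ Nat.card T.W1 = 1 := pow_card_eq_one'
  have h2 : m ^ Nat.card T.W1 ∈ T.H :=
    (T.w_eq_one _ (pow_mem hm _)).1 (by rw [hw]; exact congrArg Subtype.val h1)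
  rw [(key _).2, hH _ h2 _ (hQ x hx)]; group

/-- if `e`-th powers of elements normalising a `p`-subgroup centralise it, the same holds for
elements of order `p` in every section. -/
theorem sec_fus {G S : Type*} [Group G] [Finite G] [Group S] {p e : ℕ} [Fact p.Prime]
    (hG : ∀ Q : Subgroup G, IsPGroup p Q → ∀ g : G, (∀ x ∈ Q, g * x * g⁻¹ ∈ Q) →
      ∀ x ∈ Q, g ^ e * x * (g ^ e)⁻¹ = x)
    (H : Subgroup G) (φ : H →* S) (hφ : Function.Surjective φ) {a b : S} (ha : a ^ p = 1) {k : ℕ}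
    (hb : b * a * b⁻¹ = a ^ k) : a ^ k ^ e = a := by
  haveI : Finite S := Finite.of_surjective φ hφ
  have hp : IsPGroup p (zpowers a) := by
    rintro ⟨_, j, rfl⟩
    refine ⟨1, Subtype.ext ?_⟩
    change (a ^ j) ^ p ^ 1 = 1
    rw [← zpow_natCast, ← zpow_mul, mul_comm, zpow_mul, zpow_natCast, pow_one, ha, one_zpow]
  have hm : ((zpowers a).comap φ).map φ = zpowers a := map_comap_eq_self_of_surjective hφ _
  obtain ⟨T₀, hT₀V, hT₀, hT₀Q⟩ := H22.exists_isPGroup_map_eq φ hp hm.ge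
  obtain ⟨P, hP, hTP⟩ := H4.IsSylowIn.exists_le hT₀ hT₀V
  obtain ⟨x, hx, hxa⟩ := hT₀Q.ge (mem_zpowers a)
  obtain ⟨y, rfl⟩ := hφ b
  have hy : y ∈ normalizer (((zpowers a).comap φ : Subgroup H) : Set H) := by
    refine H4.mem_normalizer_of_conj_mem fun z hz => ?_
    obtain ⟨j, hj⟩ := hz
    refine ⟨k * j, ?_⟩
    change a ^ j = φ z at hj
    change a ^ ((k : ℤ) * j) = φ (y * z * y⁻¹)
    rw [map_mul, map_mul, map_inv, ← hj, zpow_mul, zpow_natCast, ← hb, conj_zpow]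
  obtain ⟨n, ⟨j, hj⟩, hn⟩ := hP.frattini hy
  change a ^ j = φ n at hj
  have h1 := hG (P.map H.subtype) (hP.isPGroup.map _) ((n * y : H) : G) (by
    rintro _ ⟨z, hz, rfl⟩
    exact ⟨n * y * z * (n * y)⁻¹, (mem_normalizer_iff.1 hn z).1 hz, rfl⟩) x ⟨x, hTP hx, rfl⟩
  have h2 : (n * y) ^ e * x * ((n * y) ^ e)⁻¹ = x := Subtype.ext h1
  have h3 := congrArg φ h2
  rw [map_mul, map_mul, map_inv, map_pow, map_mul, hxa, ← hj] at h3
  have h4 : ∀ i : ℕ, (a ^ j * φ y) ^ i * a * ((a ^ j * φ y) ^ i)⁻¹ = a ^ k ^ i := by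
    intro i
    induction i with
    | zero => simp
    | succ i ih =>
      calc _ = a ^ j * (φ y * ((a ^ j * φ y) ^ i * a * ((a ^ j * φ y) ^ i)⁻¹) * (φ y)⁻¹) * (a ^ j)⁻¹ := by
            rw [pow_succ']; simp only [mul_inv_rev, mul_assoc]
        _ = a ^ k ^ (i + 1) := by
            rw [ih, ← conj_pow, hb, ← pow_mul, ← pow_succ']; group
  rw [← h4, h3]

end Cfsg.Agent.H13
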